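import Cfsg.Agent.H853.ThC.Local
import Cfsg.Agent.Characters.CentralCharacter

/-!
# Local tests by congruences modulo the orders of the centralizers (helper741)

* `class_int` : `(1/|R|) ∑ k(a) χ̄(a b)` is integral if `|C_R(a)|` divides `k(a)`, `k` a class function of `R`.
* `cert_int` : the local test for a function which is congruent to a generalized character modulo `|C_R(a)|`.
-/

set_option autoImplicit false

open scoped ComplexConjugate
open Cfsg

namespace Cfsg.Agent.H741.M23.Avg

universe u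

open Cfsg.Agent.Characters Cfsg.Agent.H853.ThC

section R

variable {R : Type u} [Group R] [Fintype R]

open Classical in
theorem sum_classes (h : R → ℂ) (hcl : ∀ a x : R, h (x * a * x⁻¹) = h a) :
    ∑ a : R, h a = ∑ K ∈ Finset.univ.image (ConjClasses.mk : R → ConjClasses R),
      ((Subgroup.centralizer ({Quotient.out K} : Set R)).index : ℂ) * h (Quotient.out K) := by
  have hmk : ∀ a b : R, (ConjClasses.mk a = ConjClasses.mk b) ↔ IsConj a b := fun a b =>
    ConjClasses.mk_eq_mk_iff_isConj
  have hout : ∀ K : ConjClasses R, ConjClasses.mk (Quotient.out K) = K := fun K => Quotient.out_eq K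
  have h1 : ∀ a : R, h a = h (Quotient.out (ConjClasses.mk a)) := by
    intro a
    obtain ⟨c, hc⟩ := isConj_iff.1 ((hmk _ _).1 (hout (ConjClasses.mk a)))
    have h0 := hcl (Quotient.out (ConjClasses.mk a)) c
    rwa [hc] at h0
  rw [Finset.sum_congr rfl (fun a _ => h1 a),
    Finset.sum_comp (fun K : ConjClasses R => h (Quotient.out K)) (ConjClasses.mk : R → ConjClasses R)]
  refine Finset.sum_congr rfl fun K _ => ?_
  have h2 : (Finset.univ.filter fun a : R => ConjClasses.mk a = K).card =
      (Subgroup.centralizer ({Quotient.out K} : Set R)).index := by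
    rw [CentralCharacter.index_centralizer_eq_card, Nat.card_eq_fintype_card, Fintype.card_subtype]
    congr 1
    ext a
    simp only [Finset.mem_filter, Finset.mem_univ, true_and]
    constructor
    · intro h3
      exact ((hmk _ _).1 (h3.trans (hout K).symm)).symm
    · intro h3
      exact ((hmk _ _).2 h3.symm).trans (hout K)
  rw [h2, nsmul_eq_mul]

end R

section E

variable {E : Type u} [Group E] [Finite E] (R : Subgroup E) [Fintype R] (b : E)
  (hb : ∀ a ∈ R, Commute a b)
include hb

omit [Finite E] [Fintype R] in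
theorem conj_mul (a x : R) : ((x * a * x⁻¹ : R) : E) * b = (x : E) * ((a : E) * b) * (x : E)⁻¹ := by
  have h1 : (x : E) * b = b * x := (hb x x.2).eq
  have h2 : (x : E)⁻¹ * b = b * (x : E)⁻¹ := by
    have := (hb x⁻¹ (x⁻¹).2).eq
    simpa using this
  push_cast
  calc (x : E) * a * (x : E)⁻¹ * b = (x : E) * a * ((x : E)⁻¹ * b) := by group
    _ = (x : E) * a * (b * (x : E)⁻¹) := by rw [h2]
    _ = _ := by group

theorem class_int (k : R → ℤ) (hk : ∀ a x : R, k (x * a * x⁻¹) = k a)
    (hd : ∀ a : R, (Nat.card (Subgroup.centralizer ({a} : Set R)) : ℤ) ∣ k a) {χ : E → ℂ}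
    (hχ : IsCharacter E χ) :
    IsIntegral ℤ ((Nat.card R : ℂ)⁻¹ * ∑ a : R, (k a : ℂ) * conj (χ (a * b))) := by
  classical
  have hχc := Core.isCharacter_conj hχ
  rw [sum_classes (fun a : R => (k a : ℂ) * conj (χ (a * b))) (fun a x => by
    rw [hk, conj_mul R b hb, Core.isCharacter_isClassFunction hχ]), Finset.mul_sum]
  refine IsIntegral.sum _ fun K _ => ?_
  set a : R := Quotient.out K with ha
  obtain ⟨m, hm⟩ := hd a
  have h1 : (Nat.card R : ℂ) = ((Subgroup.centralizer ({a} : Set R)).index : ℂ) *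
      (Nat.card (Subgroup.centralizer ({a} : Set R)) : ℂ) := by
    exact_mod_cast (Subgroup.index_mul_card (Subgroup.centralizer ({a} : Set R))).symm
  have hne : (Nat.card R : ℂ) ≠ 0 := by exact_mod_cast Nat.card_pos.ne'
  have h2 : (Nat.card R : ℂ)⁻¹ * (((Subgroup.centralizer ({a} : Set R)).index : ℂ) *
      ((k a : ℂ) * conj (χ (a * b)))) = (m : ℂ) * conj (χ (a * b)) := by
    rw [hm]
    push_cast
    have h3 : (Nat.card R : ℂ)⁻¹ * (((Subgroup.centralizer ({a} : Set R)).index : ℂ) *
      ((Nat.card (Subgroup.centralizer ({a} : Set R)) : ℂ) * m * conj (χ (a * b)))) =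
      (Nat.card R : ℂ)⁻¹ * (((Subgroup.centralizer ({a} : Set R)).index : ℂ) *
      (Nat.card (Subgroup.centralizer ({a} : Set R)) : ℂ)) * (m * conj (χ (a * b))) := by ring
    rw [h3, ← h1, inv_mul_cancel₀ hne, one_mul]
  rw [h2]
  exact IsIntegral.mul (isIntegral_int m) (GaloisBasic.isIntegral_apply hχc _)

/-- `n f` is congruent to the generalized character `φ` modulo `|C_R(a)|` -/
theorem cert_int {f φ : E → ℂ} (hφ : IsGeneralizedCharacter E φ) (n : ℂ) (k : R → ℤ)
    (hk : ∀ a x : R, k (x * a * x⁻¹) = k a)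
    (hd : ∀ a : R, (Nat.card (Subgroup.centralizer ({a} : Set R)) : ℤ) ∣ k a)
    (h : ∀ a : R, n * f (a * b) = φ (a * b) + k a) {χ : E → ℂ} (hχ : IsCharacter E χ) :
    IsIntegral ℤ (n * ((Nat.card R : ℂ)⁻¹ * ∑ a : R, f (a * b) * conj (χ (a * b)))) := by
  have h1 := isIntegral_avg (Brauer.isGeneralizedCharacter_mul hφ
    (Brauer.isGeneralizedCharacter_of_isCharacter (Core.isCharacter_conj hχ))) R b hb
  have h2 := class_int R b hb k hk hd hχ
  have h3 : n * ((Nat.card R : ℂ)⁻¹ * ∑ a : R, f (a * b) * conj (χ (a * b))) =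
      (Nat.card R : ℂ)⁻¹ * ∑ a : R, (φ * fun g => conj (χ g)) ((a : E) * b) +
      (Nat.card R : ℂ)⁻¹ * ∑ a : R, (k a : ℂ) * conj (χ (a * b)) := by
    rw [← mul_add, ← Finset.sum_add_distrib, mul_left_comm, Finset.mul_sum]
    congr 1
    refine Finset.sum_congr rfl fun a _ => ?_
    rw [← mul_assoc, h a]
    show (φ (a * b) + k a) * conj (χ (a * b)) = φ (a * b) * conj (χ (a * b)) + k a * conj (χ (a * b))
    ring
  rw [h3]
  exact IsIntegral.add h1 h2

end E

end Cfsg.Agent.H741.M23.Avg
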