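import Cfsg.Agent.H741.M23.Avg
import Cfsg.Agent.H447.CTabLam
import Cfsg.Agent.H651.HNF.Table

/-!
# The class function `θ` of the Harada-Norton group is a generalized character (helper741, (M,23) of S4929)

`gen_theta` : from the class table `Table H ty`, a generalized character `β` with the values `Ty.b` on the 5-regular
elements and a generalized character `ρ` with the values `rh` on the elements of 2-power order, the function
`g ↦ (ty g).th` (zero on the elements of order divisible by 5) is a generalized character.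
-/

set_option autoImplicit false

open scoped ComplexConjugate
open Cfsg

namespace Cfsg.Agent.H741.M23.Gen

open Cfsg.Agent.Characters Cfsg.Agent.H853.ThC Cfsg.Agent.H741.M23.Avg Cfsg.Agent.H651.HNF

/-! ### The tables -/

/-- the values of `ρ` (the permutation character on the class 2B) on the 2-elements -/
def rh : Ty → ℤ
  | .c1 => 74064375 | .c2A => 51975 | .c2B => 8311 | .c4A => 71 | .c4B => 75 | .c4C => 151 | .c8A => 5 | .c8B => 3
  | _ => 0

/-- the types of the 2-elements -/
def two : Ty → Bool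
  | .c1 => true | .c2A => true | .c2B => true | .c4A => true | .c4B => true | .c4C => true | .c8A => true
  | .c8B => true | _ => false

/-- the type of the part of order prime to `r` -/
def reg (r : ℕ) (s : Ty) : Ty := (((s.pw r).pw r).pw r).pw r

/-- the `r`-part of the order of the centralizer -/
def rpt (r : ℕ) (s : Ty) : ℕ := Nat.gcd s.cen (r ^ 48)

/-- the exterior square of `β` -/
def lamb (s : Ty) : ℤ := (s.b * s.b - s.sq.b) / 2

/-- the exterior square of `ρ` -/
def lamr (s : Ty) : ℤ := (rh s * rh s - rh s.sq) / 2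

/-- the coefficients of `1`, `β`, `β²`, `Λ²β` -/
def cf (r : ℕ) (t : Ty) : ℤ × ℤ × ℤ × ℤ :=
  if r = 2 then (match t with
    | .c3A => (1, 2, -2, 1) | .c7 => (1, 0, 0, 0) | .c11 => (1, 0, 0, 0) | _ => (0, 0, 0, 0))
  else if r = 3 then (match t with
    | .c1 => (0, -14, 13, 0) | .c2A => (-1, 0, 0, 0) | .c2B => (-4, 2, 0, 0) | .c4A => (1, 0, 0, 0)
    | .c7 => (-1, 0, 0, 0) | _ => (0, 0, 0, 0))
  else if r = 7 then (match t with
    | .c1 => (5, 0, 0, 0) | .c2A => (1, 0, 0, 0) | .c3A => (-1, 0, 0, 0) | _ => (0, 0, 0, 0))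
  else if r = 11 then (match t with
    | .c1 => (1, 0, 0, 0) | .c2A => (1, 0, 0, 0) | _ => (0, 0, 0, 0))
  else (0, 0, 0, 0)

/-- the values of the polynomial with the coefficients `c` -/
def val (c : ℤ × ℤ × ℤ × ℤ) (s : Ty) : ℤ := c.1 + c.2.1 * s.b + c.2.2.1 * (s.b * s.b) + c.2.2.2 * lamb s

/-- the values of the polynomial for the prime 2 -/
def val2 (s : Ty) : ℤ := -40 + 17 * s.b + (s.b - 91 * lamb s) * lamr s

theorem chk : ∀ r ∈ [2, 3, 7, 11, 19], ∀ s : Ty, s ≠ .sing → ¬ (r = 2 ∧ reg r s = .c1) →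
    ((rpt r s : ℕ) : ℤ) ∣ s.th - val (cf r (reg r s)) s := by decide +kernel

theorem chk2 : ∀ s : Ty, s ≠ .sing → reg 2 s = .c1 → two s = true ∧ ((rpt 2 s : ℕ) : ℤ) ∣ s.th - val2 s := by
  decide +kernel

theorem lamb_eq : ∀ s : Ty, s ≠ .sing → s.b * s.b - s.sq.b = 2 * lamb s := by decide +kernel

theorem lamr_eq : ∀ s : Ty, two s = true → rh s * rh s - rh s.sq = 2 * lamr s := by decide +kernel

theorem two_sq : ∀ s : Ty, two s = true → two s.sq = true ∧ s ≠ .sing := by decide +kernel

theorem sq_ne : ∀ s : Ty, s ≠ .sing → s.sq ≠ .sing := by decide +kernel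

theorem cen_pos : ∀ s : Ty, s ≠ .sing → 0 < s.cen ∧ s.cen < 2 ^ 48 := by decide +kernel

theorem ord_le : ∀ s : Ty, s ≠ .sing → 0 < s.ord ∧ s.ord < 2 ^ 5 := by decide +kernel

theorem five_chk : ∀ s : Ty, s ≠ .sing → ((rpt 5 s : ℕ) : ℤ) ∣ s.th := by decide +kernel

theorem sing_th : Ty.sing.th = 0 := rfl

/-! ### Types of products -/

section tab

variable {H : Type} [Group H] {ty : H → Ty} (T : Table H ty)
include T

theorem ne_pow {x : H} (hx : ty x ≠ .sing) (m : ℕ) : ty (x ^ m) ≠ .sing := by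
  intro h
  rw [T.sing] at h
  exact hx ((T.sing x).2 (h.trans (orderOf_pow_dvd m)))

theorem ty_pow4 {x : H} (hx : ty x ≠ .sing) {r : ℕ} (hr : r.Prime) : ty (x ^ r ^ 4) = reg r (ty x) := by
  have h1 := T.pow x r hr hx
  have h2 := T.pow (x ^ r) r hr (ne_pow T hx _)
  have h3 := T.pow ((x ^ r) ^ r) r hr (ne_pow T (ne_pow T hx _) _)
  have h4 := T.pow (((x ^ r) ^ r) ^ r) r hr (ne_pow T (ne_pow T (ne_pow T hx _) _) _)
  have h5 : x ^ r ^ 4 = (((x ^ r) ^ r) ^ r) ^ r := by
    rw [← pow_mul, ← pow_mul, ← pow_mul]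
    congr 1
    ring
  rw [h5, h4, h3, h2, h1]
  rfl

theorem ty_prod {a b : H} (hab : Commute a b) (hx : ty (a * b) ≠ .sing) {r : ℕ} (hr : r.Prime) {i : ℕ}
    (hi : orderOf a = r ^ i) (hb : ¬ r ∣ orderOf b) : reg r (ty (a * b)) = ty b := by
  have hcop : (orderOf a).Coprime (orderOf b) := by
    rw [hi]
    exact Nat.Coprime.pow_left i ((Nat.Prime.coprime_iff_not_dvd hr).2 hb)
  have hord : orderOf (a * b) = orderOf a * orderOf b := hab.orderOf_mul_eq_mul_orderOf_of_coprime hcop
  have hle := ord_le _ hx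
  rw [← T.ord _ hx, hord] at hle
  have hbpos : 0 < orderOf b := Nat.pos_of_ne_zero fun h => by
    rw [h, mul_zero] at hle
    exact absurd hle.1 (by norm_num)
  have hi4 : i ≤ 4 := by
    by_contra hc
    have h1 : 2 ^ 5 ≤ 2 ^ i := Nat.pow_le_pow_right (by norm_num) (by omega)
    have h2 : 2 ^ i ≤ r ^ i := Nat.pow_le_pow_left hr.two_le i
    have h3 : orderOf a ≤ orderOf a * orderOf b := Nat.le_mul_of_pos_right _ hbpos
    omega
  have ha4 : a ^ r ^ 4 = 1 := by
    apply orderOf_dvd_iff_pow_eq_one.1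
    rw [hi]
    exact pow_dvd_pow r hi4
  have hbne : ty b ≠ .sing := by
    intro h
    apply hx
    rw [T.sing] at h ⊢
    rw [hord]
    exact h.mul_left _
  rw [← ty_pow4 T hx hr, hab.mul_pow, ha4, one_mul]
  exact T.real b hbne _ (Nat.Coprime.pow_left 4 ((Nat.Prime.coprime_iff_not_dvd hr).2 hb))

end tab

/-! ### The order of `C_R(a)` -/

section cent

variable {H : Type} [Group H] [Finite H] {ty : H → Ty} (T : Table H ty)
include T

theorem card_cent_R {E : Subgroup H} {R : Subgroup E} {r : ℕ} (hr : r.Prime) (hR : IsPGroup r R) {b : E}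
    (hb : ∀ a ∈ R, Commute a b) (a : R) (hx : ty (((a : E) * b : E) : H) ≠ .sing) :
    Nat.card (Subgroup.centralizer ({a} : Set R)) ∣ rpt r (ty (((a : E) * b : E) : H)) := by
  have : Fact r.Prime := ⟨hr⟩
  obtain ⟨j, hj⟩ := (hR.to_subgroup (Subgroup.centralizer ({a} : Set R))).exists_card_eq
  have h1 : Nat.card (Subgroup.centralizer ({a} : Set R)) ∣ (ty (((a : E) * b : E) : H)).cen := by
    rw [← T.cent _ hx]
    let f : R →* H := E.subtype.comp R.subtype
    have hf : Function.Injective f := E.subtype_injective.comp R.subtype_injective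
    have h2 : Nat.card ((Subgroup.centralizer ({a} : Set R)).map f) =
        Nat.card (Subgroup.centralizer ({a} : Set R)) :=
      Nat.card_congr ((Subgroup.centralizer ({a} : Set R)).equivMapOfInjective f hf).toEquiv.symm
    rw [← h2]
    apply Subgroup.card_dvd_of_le
    rintro _ ⟨x, hx', rfl⟩
    rw [Subgroup.mem_centralizer_singleton_iff]
    have h3 : x * a = a * x := Subgroup.mem_centralizer_singleton_iff.1 hx'
    have h4 : (x : E) * (a : E) = a * x := congrArg Subtype.val h3
    have h5 : (x : E) * b = b * x := (hb x x.2).eq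
    have h6 : (x : E) * ((a : E) * b) = (a : E) * b * x := by
      rw [← mul_assoc, h4, mul_assoc, h5, mul_assoc]
    exact congrArg Subtype.val h6
  refine Nat.dvd_gcd h1 ?_
  rw [hj] at h1 ⊢
  apply pow_dvd_pow
  by_contra hc
  have hcen := cen_pos _ hx
  have h2 : 2 ^ 48 ≤ 2 ^ j := Nat.pow_le_pow_right (by norm_num) (by omega)
  have h3 : 2 ^ j ≤ r ^ j := Nat.pow_le_pow_left hr.two_le j
  have h4 := Nat.le_of_dvd hcen.1 h1
  omega

theorem loc_cert (E : Subgroup H) {r : ℕ} (hr : r.Prime) (h5 : r ≠ 5) (Φ : Ty → H → ℂ) (p : Ty → Ty → ℤ)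
    (hΦ : ∀ t, IsGeneralizedCharacter H (Φ t))
    (hv : ∀ x, ty x ≠ .sing → Φ (reg r (ty x)) x = (p (reg r (ty x)) (ty x) : ℂ))
    (hc : ∀ s, s ≠ .sing → ((rpt r s : ℕ) : ℤ) ∣ s.th - p (reg r s) s) :
    Loc r (fun e : E => ((ty (e : H)).th : ℂ)) := by
  have : Fact r.Prime := ⟨hr⟩
  refine ⟨1, by norm_num, ?_⟩
  intro R _ b hR hrb hb χ hχ
  rw [Nat.cast_one]
  by_cases h5b : 5 ∣ orderOf (b : H)
  · rw [one_mul]
    have hs : ∀ a : E, a ∈ R → ty ((a * b : E) : H) = .sing := by
      intro a ha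
      obtain ⟨i, hi, -⟩ := order_mul hr hR hb hrb ha
      rw [T.sing, hi]
      exact h5b.mul_left _
    refine const_int (f := fun e : E => ((ty (e : H)).th : ℂ)) R b hb 0 0 (fun a ha _ => ?_) ?_ hχ
    · show ((ty ((a * b : E) : H)).th : ℂ) = ((0 : ℤ) : ℂ)
      rw [hs a ha, sing_th]
    · show ((ty (b : H)).th : ℂ) = ((0 : ℤ) : ℂ) + (Nat.card R : ℂ) * ((0 : ℤ) : ℂ)
      rw [(T.sing _).2 h5b, sing_th]
      simp
  · have hne : ∀ a : E, a ∈ R → ty ((a * b : E) : H) ≠ .sing := by
      intro a ha h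
      obtain ⟨i, hi, -⟩ := order_mul hr hR hb hrb ha
      rw [T.sing, hi] at h
      rcases (Nat.Prime.dvd_mul Nat.prime_five).1 h with h | h
      · exact h5 ((Nat.prime_dvd_prime_iff_eq Nat.prime_five hr).1 (Nat.prime_five.dvd_of_dvd_pow h)).symm
      · exact h5b h
    have hty : ∀ a : E, a ∈ R → reg r (ty ((a * b : E) : H)) = ty (b : H) := by
      intro a ha
      obtain ⟨i, hi⟩ := (IsPGroup.iff_orderOf.1 hR) ⟨a, ha⟩
      have hi' : orderOf (a : H) = r ^ i := by
        rw [← hi, Subgroup.orderOf_coe, ← Subgroup.orderOf_coe (⟨a, ha⟩ : R)]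
      have hcm : Commute (a : H) (b : H) := by
        have := congrArg E.subtype (hb a ha).eq
        rw [map_mul, map_mul] at this
        exact this
      exact ty_prod T hcm (hne a ha) hr hi' (by rwa [Subgroup.orderOf_coe])
    refine cert_int R b hb (f := fun e : E => ((ty (e : H)).th : ℂ)) (φ := fun e : E => Φ (ty (b : H)) (e : H))
      (H651.isGeneralizedCharacter_comp_hom E.subtype (hΦ (ty (b : H)))) 1
      (fun a : R => (ty (((a : E) * b : E) : H)).th - p (ty (b : H)) (ty (((a : E) * b : E) : H))) ?_ ?_ ?_ hχ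
    · intro a x
      have h1 : ty (((((x * a * x⁻¹ : R) : E) * b : E)) : H) = ty (((a : E) * b : E) : H) := by
        refine (T.inv _ _ (isConj_iff.2 ⟨((x : E) : H), ?_⟩)).symm
        rw [conj_mul R b hb]
        rfl
      rw [h1]
    · intro a
      have h1 := card_cent_R T hr hR hb a (hne a a.2)
      have h2 := hc _ (hne a a.2)
      rw [hty a a.2] at h2
      exact (Int.natCast_dvd_natCast.2 h1).trans h2
    · intro a
      have h1 := hv _ (hne a a.2)
      rw [hty a a.2] at h1
      rw [one_mul, h1]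
      push_cast
      ring

/-- the local test at 5 -/
theorem loc_five (E : Subgroup H) : Loc 5 (fun e : E => ((ty (e : H)).th : ℂ)) := by
  refine ⟨1, by norm_num, ?_⟩
  intro R _ b hR hrb hb χ hχ
  rw [Nat.cast_one, one_mul]
  have hbne : ty (b : H) ≠ .sing := by
    intro h
    rw [T.sing, Subgroup.orderOf_coe] at h
    exact hrb h
  have h1 := card_cent_R T Nat.prime_five hR hb 1 (by rwa [Subgroup.coe_one, one_mul])
  rw [Subgroup.coe_one, one_mul] at h1
  have h2 : Nat.card (Subgroup.centralizer ({(1 : R)} : Set R)) = Nat.card R := by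
    have h3 : Subgroup.centralizer ({(1 : R)} : Set R) = ⊤ := by
      rw [eq_top_iff]
      intro x _
      rw [Subgroup.mem_centralizer_singleton_iff, mul_one, one_mul]
    rw [h3, Subgroup.card_top]
  rw [h2] at h1
  obtain ⟨k, hk⟩ := (Int.natCast_dvd_natCast.2 h1).trans (five_chk _ hbne)
  refine const_int (f := fun e : E => ((ty (e : H)).th : ℂ)) R b hb 0 k (fun a ha ha1 => ?_) ?_ hχ
  · obtain ⟨i, hi, hi1⟩ := order_mul Nat.prime_five hR hb hrb ha
    have h3 : ty ((a * b : E) : H) = .sing := by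
      rw [T.sing, hi]
      exact Dvd.dvd.mul_right (dvd_pow_self 5 (by have := hi1 ha1; omega)) _
    show ((ty ((a * b : E) : H)).th : ℂ) = ((0 : ℤ) : ℂ)
    rw [h3, sing_th]
  · show ((ty (b : H)).th : ℂ) = ((0 : ℤ) : ℂ) + (Nat.card R : ℂ) * (k : ℂ)
    rw [hk]
    push_cast
    ring

end cent

/-! ### Constants -/

theorem gen_const {G : Type} [Group G] [Finite G] (c : ℤ) : IsGeneralizedCharacter G (fun _ => (c : ℂ)) := by
  have h1 : IsGeneralizedCharacter G (1 : G → ℂ) :=
    Brauer.isGeneralizedCharacter_of_isCharacter Core.isCharacter_one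
  have hn : ∀ n : ℕ, IsGeneralizedCharacter G (fun _ => (n : ℂ)) := by
    intro n
    induction n with
    | zero =>
      have h2 : (fun _ => ((0 : ℕ) : ℂ)) = (0 : G → ℂ) := by
        funext g
        simp
      rw [h2]
      exact Brauer.isGeneralizedCharacter_zero
    | succ n ih =>
      have h2 : (fun _ => ((n + 1 : ℕ) : ℂ)) = (fun _ => (n : ℂ)) + (1 : G → ℂ) := by
        funext g
        simp
      rw [h2]
      exact Brauer.isGeneralizedCharacter_add ih h1
  obtain ⟨n, rfl | rfl⟩ := Int.eq_nat_or_neg c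
  · exact_mod_cast hn n
  · have h2 : (fun _ => ((-(n : ℤ) : ℤ) : ℂ)) = -(fun _ : G => (n : ℂ)) := by
      funext g
      simp
    rw [h2]
    exact Brauer.isGeneralizedCharacter_neg (hn n)

section main

variable {H : Type} [Group H] [Finite H] {ty : H → Ty} (T : Table H ty) {β ρ : H → ℂ}
  (hβ : IsGeneralizedCharacter H β) (hbv : ∀ g, ty g ≠ .sing → β g = ((ty g).b : ℂ))
include T hβ hbv

omit T hbv in
/-- the polynomials -/
theorem gen_poly (c : ℤ × ℤ × ℤ × ℤ) : IsGeneralizedCharacter H (fun g => (c.1 : ℂ) + c.2.1 * β g +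
    c.2.2.1 * (β g * β g) + c.2.2.2 * ((β g * β g - β (g ^ 2)) / 2)) := by
  have h1 := Brauer.isGeneralizedCharacter_mul (gen_const (G := H) c.2.1) hβ
  have h2 := Brauer.isGeneralizedCharacter_mul (gen_const (G := H) c.2.2.1)
    (Brauer.isGeneralizedCharacter_mul hβ hβ)
  have h3 := Brauer.isGeneralizedCharacter_mul (gen_const (G := H) c.2.2.2)
    (H447.CTab.gen_ext_two hβ)
  exact Brauer.isGeneralizedCharacter_add (Brauer.isGeneralizedCharacter_add
    (Brauer.isGeneralizedCharacter_add (gen_const c.1) h1) h2) h3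

omit hβ [Finite H] in
theorem lamb_val {x : H} (hx : ty x ≠ .sing) : (β x * β x - β (x ^ 2)) / 2 = (lamb (ty x) : ℂ) := by
  have h1 : ty (x ^ 2) = (ty x).sq := T.pow x 2 Nat.prime_two hx
  rw [hbv x hx, hbv (x ^ 2) (ne_pow T hx 2), h1]
  have h2 := lamb_eq _ hx
  have h3 : ((ty x).b : ℂ) * ((ty x).b : ℂ) - ((ty x).sq.b : ℂ) = 2 * (lamb (ty x) : ℂ) := by exact_mod_cast h2
  rw [h3]
  ring

/-- the local tests at the primes other than 5, except `b = 1` for the prime 2 -/
theorem loc_all (hρ : IsGeneralizedCharacter H ρ) (hrv : ∀ g, two (ty g) = true → ρ g = (rh (ty g) : ℂ))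
    (E : Subgroup H) {r : ℕ} (hr : r.Prime) : Loc r (fun e : E => ((ty (e : H)).th : ℂ)) := by
  by_cases h5 : r = 5
  · rw [h5]; exact loc_five T E
  by_cases hm : r ∈ [2, 3, 7, 11, 19]
  · refine loc_cert T E hr h5 (fun t => if r = 2 ∧ t = .c1 then
        (fun g => ((-40 : ℤ) : ℂ) + ((17 : ℤ) : ℂ) * β g + (β g - ((91 : ℤ) : ℂ) * ((β g * β g - β (g ^ 2)) / 2)) *
          ((ρ g * ρ g - ρ (g ^ 2)) / 2)) else
        (fun g => ((cf r t).1 : ℂ) + (cf r t).2.1 * β g + (cf r t).2.2.1 * (β g * β g) +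
          (cf r t).2.2.2 * ((β g * β g - β (g ^ 2)) / 2)))
      (fun t s => if r = 2 ∧ t = .c1 then val2 s else val (cf r t) s) ?_ ?_ ?_
    · intro t
      split_ifs with h
      · have h1 := Brauer.isGeneralizedCharacter_mul (gen_const (G := H) 17) hβ
        have h2 := Brauer.isGeneralizedCharacter_mul (gen_const (G := H) 91) (H447.CTab.gen_ext_two hβ)
        have h3 := Brauer.isGeneralizedCharacter_mul (Brauer.isGeneralizedCharacter_sub hβ h2)
          (H447.CTab.gen_ext_two hρ)
        exact Brauer.isGeneralizedCharacter_add (Brauer.isGeneralizedCharacter_add (gen_const (-40)) h1) h3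
      · exact gen_poly hβ (cf r t)
    · intro x hx
      by_cases h : r = 2 ∧ reg r (ty x) = .c1
      · rw [if_pos h, if_pos h]
        obtain ⟨h2, h1⟩ := h
        rw [h2] at h1
        have h3 := (chk2 _ hx h1).1
        have h4 := (two_sq _ h3).1
        have h5' : ty (x ^ 2) = (ty x).sq := T.pow x 2 Nat.prime_two hx
        rw [lamb_val T hbv hx, hbv x hx, hrv x h3, hrv (x ^ 2) (by rw [h5']; exact h4), h5']
        have h6 : ((rh (ty x) : ℤ) : ℂ) * (rh (ty x) : ℂ) - (rh (ty x).sq : ℂ) = 2 * (lamr (ty x) : ℂ) := by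
          exact_mod_cast lamr_eq _ h3
        rw [h6]
        unfold val2
        push_cast
        ring
      · rw [if_neg h, if_neg h]
        rw [lamb_val T hbv hx, hbv x hx]
        unfold val
        push_cast
        ring
    · intro s hs
      by_cases h : r = 2 ∧ reg r s = .c1
      · rw [if_pos h]
        obtain ⟨h2, h1⟩ := h
        rw [h2] at h1 ⊢
        exact (chk2 s hs h1).2
      · rw [if_neg h]
        exact chk r hm s hs h
  · have hreg : ∀ s : Ty, reg r s = s := by
      intro s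
      simp only [List.mem_cons, List.not_mem_nil, or_false, not_or] at hm
      obtain ⟨h2, h3, h7, h11, h19⟩ := hm
      have h1 : ∀ s : Ty, s.pw r = s := by
        intro s
        unfold Ty.pw
        rw [if_neg h2, if_neg h3, if_neg h7, if_neg h11, if_neg h19]
      unfold reg
      rw [h1, h1, h1, h1]
    refine loc_cert T E hr h5 (fun t _ => (t.th : ℂ)) (fun t _ => t.th) (fun t => gen_const t.th) ?_ ?_
    · intro x _
      rfl
    · intro s _
      rw [hreg, sub_self]
      exact dvd_zero _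

/-- **`θ` is a generalized character.** -/
theorem gen_theta (hρ : IsGeneralizedCharacter H ρ) (hrv : ∀ g, two (ty g) = true → ρ g = (rh (ty g) : ℂ)) :
    IsGeneralizedCharacter H (fun g => ((ty g).th : ℂ)) := by
  have hcl : ∀ g h : H, ty (h * g * h⁻¹) = ty g := fun g h => (T.inv _ _ (isConj_iff.2 ⟨h, rfl⟩)).symm
  refine Brauer.brauer_characterization _ (fun g h => ?_) fun E p hp hel => ?_
  · show ((ty (h * g * h⁻¹)).th : ℂ) = _
    rw [hcl]
  have hnil : Group.IsNilpotent E := H651.isNilpotent_of_isElementary hp hel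
  refine isGeneralizedCharacter_of_loc ?_ (fun e => ⟨_, rfl⟩) ?_ fun r hr => loc_all T hβ hbv hρ hrv E hr
  · intro g k
    show ((ty ((k * g * k⁻¹ : E) : H)).th : ℂ) = _
    have : ((k * g * k⁻¹ : E) : H) = (k : H) * g * (k : H)⁻¹ := rfl
    rw [this, hcl]
  · intro m hm e
    show ((ty ((e ^ m : E) : H)).th : ℂ) = ((ty (e : H)).th : ℂ)
    by_cases hs : ty (e : H) = .sing
    · have h1 : ty ((e ^ m : E) : H) = .sing := by
        rw [T.sing] at hs ⊢
        rw [Subgroup.orderOf_coe] at hs ⊢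
        rw [Nat.Coprime.orderOf_pow (Nat.Coprime.coprime_dvd_right (orderOf_dvd_natCard e) hm).symm]
        exact hs
      rw [h1, hs]
    · rw [Subgroup.coe_pow, T.real _ hs m]
      rw [Subgroup.orderOf_coe]
      exact Nat.Coprime.coprime_dvd_right (orderOf_dvd_natCard e) hm

end main

end Cfsg.Agent.H741.M23.Gen
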