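import Cfsg.Agent.H741.M23.Gen
import Cfsg.Agent.H996.Eight.Interval

/-!
# `gen_theta` with the permutation character on a conjugacy class (helper741, (M,23) of S4929)

`gen_theta_of` : the hypothesis on `ρ` of `gen_theta` is replaced by the numbers of the conjugates of an element `W`
(of the class 2B) commuting with the elements of 2-power order.
-/

set_option autoImplicit false

open Cfsg MulAction

namespace Cfsg.Agent.H741.M23.Gen

open Cfsg.Agent.Characters Cfsg.Agent.H651.HNF Cfsg.Agent.H464.PermIrr

/-- the conjugates of `W` -/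
def Cl {H : Type} [Group H] (W : H) : Type := {t : H // IsConj W t}

instance {H : Type} [Group H] (W : H) : MulAction H (Cl W) where
  smul h t := ⟨h * t.1 * h⁻¹, t.2.trans (isConj_iff.2 ⟨h, rfl⟩)⟩
  one_smul t := Subtype.ext (show 1 * t.1 * 1⁻¹ = t.1 by group)
  mul_smul a b t := Subtype.ext (show a * b * t.1 * (a * b)⁻¹ = a * (b * t.1 * b⁻¹) * a⁻¹ by group)

instance {H : Type} [Group H] [Finite H] (W : H) : Finite (Cl W) :=
  inferInstanceAs (Finite {t : H // IsConj W t})

/-- the number of conjugates of `W` commuting with `g` -/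
noncomputable def nfix {H : Type} [Group H] (W g : H) : ℕ := Nat.card {t : H // IsConj W t ∧ Commute t g}

theorem nfix_eq {H : Type} [Group H] (W g : H) : nfix W g = Nat.card (fixedBy (Cl W) g) := by
  refine Nat.card_congr
    { toFun := fun t => ⟨⟨t.1, t.2.1⟩, Subtype.ext ?_⟩
      invFun := fun t => ⟨t.1.1, t.1.2, ?_⟩
      left_inv := fun t => rfl
      right_inv := fun t => rfl }
  · show g * t.1 * g⁻¹ = t.1
    rw [mul_inv_eq_iff_eq_mul]
    exact t.2.2.eq.symm
  · have h1 : g * t.1.1 * g⁻¹ = t.1.1 := congrArg Subtype.val t.2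
    rw [mul_inv_eq_iff_eq_mul] at h1
    exact h1.symm

theorem isCharacter_nfix {H : Type} [Group H] [Finite H] (W : H) :
    IsCharacter H (fun g => ((nfix W g : ℕ) : ℂ)) := by
  have h1 : IsCharacter H (pc H (Cl W)) := isCharacter_pc (G := H) (Cl W)
  have h2 : (fun g => ((nfix W g : ℕ) : ℂ)) = pc H (Cl W) := by
    funext g
    rw [nfix_eq]
    rfl
  rw [h2]
  exact h1

/-- **`θ` is a generalized character**, from the numbers of the conjugates of `W` commuting with the elements of 2-power
order. -/
theorem gen_theta_of {H : Type} [Group H] [Finite H] {ty : H → Ty} (T : Table H ty) {β : H → ℂ}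
    (hβ : IsGeneralizedCharacter H β) (hbv : ∀ g, ty g ≠ .sing → β g = ((ty g).b : ℂ)) (W : H)
    (hW : ∀ g, two (ty g) = true → (nfix W g : ℤ) = rh (ty g)) :
    IsGeneralizedCharacter H (fun g => ((ty g).th : ℂ)) := by
  refine gen_theta T hβ hbv (ρ := fun g => ((nfix W g : ℕ) : ℂ))
    (Brauer.isGeneralizedCharacter_of_isCharacter (isCharacter_nfix W)) fun g hg => ?_
  have h1 := hW g hg
  exact_mod_cast congrArg (fun n : ℤ => (n : ℂ)) h1

/-- the numbers are invariant under isomorphism -/
theorem nfix_map {H K : Type} [Group H] [Group K] (e : H ≃* K) (W g : H) : nfix (e W) (e g) = nfix W g := by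
  refine (Nat.card_congr (α := {t : H // IsConj W t ∧ Commute t g}) (β := {t : K // IsConj (e W) t ∧ Commute t (e g)})
    { toFun := fun t => ⟨e t.1, ?_, ?_⟩
      invFun := fun t => ⟨e.symm t.1, ?_, ?_⟩
      left_inv := fun t => Subtype.ext (e.symm_apply_apply _)
      right_inv := fun t => Subtype.ext (e.apply_symm_apply _) }).symm
  · exact e.toMonoidHom.map_isConj t.2.1
  · exact t.2.2.map e.toMonoidHom
  · have h1 := e.symm.toMonoidHom.map_isConj t.2.1
    have h2 : e.symm.toMonoidHom (e W) = W := e.symm_apply_apply W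
    rw [h2] at h1
    exact h1
  · have h1 := t.2.2.map e.symm.toMonoidHom
    have h2 : e.symm.toMonoidHom (e g) = g := e.symm_apply_apply g
    rw [h2] at h1
    exact h1

/-- the numbers depend only on the class of `g` -/
theorem nfix_conj {H : Type} [Group H] (W : H) {g h : H} (hc : IsConj g h) : nfix W g = nfix W h := by
  obtain ⟨c, rfl⟩ := isConj_iff.1 hc
  have h1 := nfix_map (MulAut.conj c) W g
  have h2 : nfix (MulAut.conj c W) (MulAut.conj c g) = nfix W (MulAut.conj c g) := by
    unfold nfix
    have h3 : ∀ t : H, IsConj (MulAut.conj c W) t ↔ IsConj W t := by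
      intro t
      have h4 : IsConj W (MulAut.conj c W) := isConj_iff.2 ⟨c, rfl⟩
      exact ⟨fun h => h4.trans h, fun h => h4.symm.trans h⟩
    simp only [h3]
  rw [← h1, h2]
  rfl

end Cfsg.Agent.H741.M23.Gen
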