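import Cfsg.Agent.H741.M23.Rho
import Cfsg.Agent.H653.HNE.RhoB
import Cfsg.Agent.H981.M23.HNTwoB
import Cfsg.Agent.H164.M23.ThetaTab

/-!
# `θ` is a generalized character of the Harada-Norton group (helper741, (M,23) of S4929)

`gen_theta_iso` : for a group isomorphic to `Spor.HN` with a class table.
-/

set_option autoImplicit false

open Cfsg

namespace Cfsg.Agent.H741.M23.Gen

open Cfsg.Agent.Characters Cfsg.Agent.H651.HNF Cfsg.Agent.H653.HNE
open Cfsg.Agent.HN.XWords Cfsg.Agent.HN.XStruct Cfsg.Agent.KFacts.HN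

theorem typ : ∀ s : Ty, s ≠ .sing → (s.ord = 1 → s = .c1) ∧ (s.ord = 2 → s.cen = 177408000 → s = .c2A) ∧
    (s.ord = 2 → s.cen = 3686400 → s = .c2B) ∧ (s.ord = 4 → s.cen = 15360 → s = .c4A) ∧
    (s.ord = 4 → s.cen = 3840 → s = .c4C) ∧ (s.ord = 8 → s.cen = 64 → s = .c8B) := by decide +kernel

section HN

variable {ty : Cfsg.Spor.HN → Ty} (T : Table Cfsg.Spor.HN ty)
include T

theorem ne_sing {x : Cfsg.Spor.HN} {n : ℕ} (ho : orderOf x = n) (hn : ¬ 5 ∣ n) : ty x ≠ .sing := by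
  intro h
  rw [T.sing, ho] at h
  exact hn h

theorem ty_one : ty (1 : Cfsg.Spor.HN) = .c1 := by
  have h0 : ty (1 : Cfsg.Spor.HN) ≠ .sing := ne_sing T orderOf_one (by norm_num)
  exact (typ _ h0).1 (by rw [← T.ord _ h0, orderOf_one])

omit T in
theorem orderOf_tA : orderOf tA = 2 := orderOf_eq_prime tA_sq tA_ne

theorem ty_tA : ty tA = .c2A := by
  have h0 : ty tA ≠ .sing := ne_sing T orderOf_tA (by norm_num)
  exact (typ _ h0).2.1 (by rw [← T.ord _ h0, orderOf_tA])
    (by rw [← T.cent _ h0]; exact Cfsg.Agent.KFacts.HN.Classes.card_centralizer_τ)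

theorem ty_W0 : ty W0 = .c2B := by
  have h0 : ty W0 ≠ .sing := ne_sing T orderOf_W0 (by norm_num)
  exact (typ _ h0).2.2.1 (by rw [← T.ord _ h0, orderOf_W0]) (by rw [← T.cent _ h0]; exact card_PP)

theorem ty_R4A : ty R4A = .c4A := by
  have h0 : ty R4A ≠ .sing := ne_sing T orderOf_R4A (by norm_num)
  exact (typ _ h0).2.2.2.1 (by rw [← T.ord _ h0, orderOf_R4A]) (by rw [← T.cent _ h0]; exact card_4A)

theorem ty_R4C : ty R4C = .c4C := by
  have h0 : ty R4C ≠ .sing := ne_sing T orderOf_R4C (by norm_num)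
  exact (typ _ h0).2.2.2.2.1 (by rw [← T.ord _ h0, orderOf_R4C]) (by rw [← T.cent _ h0]; exact card_4C)

theorem ty_R8B : ty R8B = .c8B := by
  have h0 : ty R8B ≠ .sing := ne_sing T orderOf_R8B (by norm_num)
  exact (typ _ h0).2.2.2.2.2 (by rw [← T.ord _ h0, orderOf_R8B]) (by rw [← T.cent _ h0]; exact card_8B)

/-- an element of the same type as a representative -/
theorem conj_of {a g : Cfsg.Spor.HN} {s : Ty} (ha : ty a = s) (hg : ty g = s) (h1 : s ≠ .sing) (h2 : s ≠ .c19) :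
    IsConj a g := T.conj a g (ha.trans hg.symm) (by rw [ha]; exact h1) (by rw [ha]; exact h2)

theorem sq_4B {g : Cfsg.Spor.HN} (hg : ty g = .c4B) : IsConj tA (g ^ 2) := by
  have h1 : ty (g ^ 2) = .c2A := by
    rw [T.pow g 2 Nat.prime_two (by rw [hg]; decide), hg]
    rfl
  exact conj_of T (ty_tA T) h1 (by decide) (by decide)

theorem four_8A {g : Cfsg.Spor.HN} (hg : ty g = .c8A) : IsConj tA (g ^ 4) := by
  have h1 : ty (g ^ 2) = .c4B := by
    rw [T.pow g 2 Nat.prime_two (by rw [hg]; decide), hg]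
    rfl
  have h2 := sq_4B T h1
  rwa [← pow_mul] at h2

theorem nfix_HN : ∀ g, two (ty g) = true → (nfix W0 g : ℤ) = rh (ty g) := by
  intro g hg
  have hB : nfix W0 g = B2 g := rfl
  rw [hB]
  generalize hs : ty g = s at hg ⊢
  cases s <;> first | exact absurd hg (by decide) | skip
  · have h1 : IsConj 1 g := conj_of T (ty_one T) hs (by decide) (by decide)
    rw [← B2_conj h1, B2_one]
    rfl
  · rw [B2_2A (conj_of T (ty_tA T) hs (by decide) (by decide))]
    rfl
  · rw [B2_2B (conj_of T (ty_W0 T) hs (by decide) (by decide))]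
    rfl
  · rw [B2_4Ag (conj_of T (ty_R4A T) hs (by decide) (by decide))]
    rfl
  · have h1 := sq_4B T hs
    have h2 := Cfsg.Agent.H981.M23.HNTwoB.four h1
    rw [B2_4B' h2.2 fun h => ⟨fun h3 => sq_4B T ((T.inv _ _ h3).symm.trans hs), fun h3 =>
      h2.1.symm.trans (Cfsg.Agent.H981.M23.HNTwoB.four h3).1⟩]
    rfl
  · rw [B2_4C (conj_of T (ty_R4C T) hs (by decide) (by decide))]
    rfl
  · have h1 := four_8A T hs
    have h2 := Cfsg.Agent.H981.M23.HNTwoB.eight h1
    rw [B2_8A' h2.2 fun h => ⟨fun h3 => four_8A T ((T.inv _ _ h3).symm.trans hs), fun h3 =>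
      h2.1.symm.trans (Cfsg.Agent.H981.M23.HNTwoB.eight h3).1⟩]
    rfl
  · rw [B2_8B (conj_of T (ty_R8B T) hs (by decide) (by decide))]
    rfl

end HN

/-- **`θ` is a generalized character**: groups isomorphic to `Spor.HN`. -/
theorem gen_theta_iso {K : Type} [Group K] [Finite K] (e : K ≃* Cfsg.Spor.HN) {ty : K → Ty} (T : Table K ty)
    {β : K → ℂ} (hβ : IsGeneralizedCharacter K β) (hbv : ∀ g, ty g ≠ .sing → β g = ((ty g).b : ℂ)) :
    IsGeneralizedCharacter K (fun g => ((ty g).th : ℂ)) := by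
  have T' : Table Cfsg.Spor.HN (fun g => ty (e.symm g)) := H164.M23.ThetaTab.Table.transfer T e.symm
  refine gen_theta_of T hβ hbv (e.symm W0) fun g hg => ?_
  have h1 := nfix_map e (e.symm W0) g
  rw [e.apply_symm_apply] at h1
  have h2 := nfix_HN T' (e g) (by rw [e.symm_apply_apply]; exact hg)
  rw [← h1, h2, e.symm_apply_apply]

end Cfsg.Agent.H741.M23.Gen
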